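import Cfsg.Agent.FT.BG14b.Decomp
import Cfsg.Agent.Lib.Element
import Cfsg.Agent.S1417
import Cfsg.Agent.S1425

/-!
BG 14.10: the sets `M̃` and the conjugates of `Ẑ` cover `G ∖ {1}`.
-/

set_option autoImplicit false
set_option linter.unusedSectionVars false
set_option linter.style.haveILetI false

namespace Cfsg.Agent.FT.BG14b

open Subgroup Cfsg.Agent.OddLocal Cfsg.Agent.FT.BG14a
open scoped Pointwise

variable {G : Type*} [Group G] [Finite G]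

theorem exists_split_nat (π : Set ℕ) (n : ℕ) : 0 < n →
    ∃ a b : ℕ, n = a * b ∧ Hall.PiNum π a ∧ Hall.PiNum πᶜ b := by
  induction n using Nat.strong_induction_on with
  | _ n ih =>
    intro hn
    rcases eq_or_ne n 1 with rfl | hn1
    · exact ⟨1, 1, rfl, Hall.piNum_one _, Hall.piNum_one _⟩
    obtain ⟨p, hp, m, rfl⟩ := Nat.exists_prime_and_dvd hn1
    have hm : 0 < m := Nat.pos_of_mul_pos_left hn
    obtain ⟨a, b, rfl, ha, hb⟩ := ih m (lt_mul_of_one_lt_left hm hp.one_lt) hm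
    have hpi : ∀ ρ : Set ℕ, p ∈ ρ → Hall.PiNum ρ p := fun ρ h q hq hd =>
      (Nat.prime_dvd_prime_iff_eq hq hp).1 hd ▸ h
    by_cases h : p ∈ π
    · exact ⟨p * a, b, by ring, (hpi π h).mul ha, hb⟩
    · exact ⟨a, p * b, by ring, ha, (hpi πᶜ h).mul hb⟩

/-- The `π`-part and `π'`-part of an element. -/
theorem exists_parts (π : Set ℕ) (g : G) :
    ∃ a b : G, a * b = g ∧ Commute a b ∧ OrdPi π a ∧ OrdPi πᶜ b ∧
      a ∈ zpowers g ∧ b ∈ zpowers g := by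
  obtain ⟨m, n, hmn, hm, hn⟩ := exists_split_nat π (orderOf g) (orderOf_pos g)
  have hcop : m.Coprime n := hm.coprime fun p hp hpπ hd => hn p hp hd hpπ
  obtain ⟨a, b, hg, hc, hao, hbo, ha, hb⟩ :=
    Element.exists_split_of_coprime hcop hmn (orderOf_pos g).ne'
  exact ⟨a, b, hg, hc, fun p hp hd => hm p hp (hao ▸ hd), fun p hp hd => hn p hp (hbo ▸ hd), ha, hb⟩

theorem pRankLE_conjBy {M : Subgroup G} {p k : ℕ} (h : Cfsg.PRankLE p k M) (g : G) :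
    Cfsg.PRankLE p k (conjBy g M) :=
  PGroup.pRankLE_of_injective (M.equivMapOfInjective _ (MulAut.conj g).injective).symm.toMonoidHom
    (MulEquiv.injective _) h

theorem conj_mem_zpowers' {a b : G} (h : b ∈ zpowers a) (g : G) :
    g * b * g⁻¹ ∈ zpowers (g * a * g⁻¹) := conj_mem_zpowers h g

variable (hG : Cfsg.IsMinSimpleOddOrder G)
include hG

theorem KPair.Zhat_eq {M K Ms : Subgroup G} (hP : KPair M K Ms) :
    Zhat Ms (kStar M K) = Zhat M K := by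
  simp only [Zhat]
  rw [hP.sup_eq, hP.star, Set.union_comm]

/-- Normal form `g = a b c` of a nontrivial element. -/
theorem exists_normal_form {g : G} (hg : g ≠ 1) :
    ∃ (M : Subgroup G) (a b c : G), IsCoatom M ∧ a ∈ Cfsg.sigmaCore M ∧ a ≠ 1 ∧
      b ∈ Cfsg.supportR M a ∧ c ∈ M ∧ Commute a c ∧ Commute b c ∧
      OrdPi (Cfsg.sigma M)ᶜ c ∧ g = a * (b * c) := by
  obtain ⟨p, hp, hpd⟩ := Nat.exists_prime_and_dvd (n := orderOf g)
    (fun h => hg (orderOf_eq_one_iff.1 h))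
  obtain ⟨M₀, hM₀, hpM⟩ := exists_normalizer_le hG hp
    (hpd.trans (orderOf_dvd_natCard g))
  obtain ⟨a, a', hga, hc0, haπ, ha'π, hag, ha'g⟩ := exists_parts (Cfsg.sigma M₀) g
  have ha1 : a ≠ 1 := fun h =>
    ha'π p hp (by rwa [show a' = g by rw [← hga, h, one_mul]]) hpM
  obtain ⟨u, hu⟩ := Cfsg.Agent.S1425.result hG M₀ hM₀ (zpowers a)
    (fun h => ha1 (zpowers_eq_bot.1 h)) (isPi_zpowers haπ)
  change conjBy u (zpowers a) ≤ _ at hu
  set M := conjBy u⁻¹ M₀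
  have hM : IsCoatom M := isCoatom_conjBy hM₀ _
  have haM : a ∈ Cfsg.sigmaCore M := by
    show a ∈ Cfsg.sigmaCore (conjBy u⁻¹ M₀)
    rw [sigmaCore_conjBy]
    have := conjBy_mono (g := u⁻¹) hu
    rw [conjBy_inv_conjBy] at this
    exact this (mem_zpowers a)
  have hσ : OrdPi (Cfsg.sigma M)ᶜ a' := by
    show OrdPi (Cfsg.sigma (conjBy u⁻¹ M₀))ᶜ a'
    rwa [sigma_conjBy]
  have ha'C : a' ∈ centralizer ({a} : Set G) := mem_centralizer_singleton_comm.2 hc0.eq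
  by_cases hC : centralizer ({a} : Set G) ≤ M
  · exact ⟨M, a, 1, a', hM, haM, ha1, one_mem _, hC ha'C, hc0, Commute.one_left _, hσ,
      by rw [one_mul, hga]⟩
  obtain ⟨N, hs⟩ := exists_signalizer hG hM haM ha1 hC
  obtain ⟨b, c, hbc, hcomm, hbπ, hcπ, hb', hc'⟩ := exists_parts (Cfsg.sigma N) a'
  have hbC : b ∈ centralizer ({a} : Set G) := (zpowers_le.2 ha'C) hb'
  have hcC : c ∈ centralizer ({a} : Set G) := (zpowers_le.2 ha'C) hc'
  have hR := supportR_eq_of_signalizer hG hC hs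
  have hbR : b ∈ Cfsg.supportR M a :=
    hR.symm ▸ ⟨mem_sigmaCore_of_ordPi hG hs.coatom (hs.cent_le hbC) hbπ, hbC⟩
  set D := M ⊓ centralizer ({a} : Set G)
  have hDC := supportR_complIn hG hM haM ha1
  have hDle : D ≤ M ⊓ N := le_inf inf_le_left (inf_le_right.trans hs.cent_le)
  have hHall : Cfsg.IsPiHallOf (Cfsg.sigma N)ᶜ D (centralizer ({a} : Set G)) := by
    refine ⟨hDC.1, fun q hq hd => sigma_complement_isPi hG hs.coatom hs.compl q hq
      (hd.trans (Subgroup.card_dvd_of_le hDle)), fun q hq hqN hd => hqN ?_⟩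
    have he : D.relIndex (centralizer ({a} : Set G)) = Nat.card (Cfsg.supportR M a) :=
      Nat.eq_of_mul_eq_mul_left Nat.card_pos
        ((relIndex_mul_card hDC.1).trans (complIn_card hDC).symm)
    rw [he, hR] at hd
    exact isPi_piCoreOf _ N q hq (hd.trans (Subgroup.card_dvd_of_le inf_le_left))
  obtain ⟨r, hr, hrD⟩ := exists_conj_le_hall
    (Coprime.isSolvable_of_le hs.cent_le (coatom_solvable hG hs.coatom)) hHall
    (zpowers_le.2 hcC) (isPi_zpowers hcπ)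
  have hra : r⁻¹ * a * r⁻¹⁻¹ = a := by
    rw [inv_inv, mul_assoc, mem_centralizer_singleton_comm.1 hr, inv_mul_cancel_left]
  have hRn : conjBy r⁻¹ (Cfsg.supportR M a) = Cfsg.supportR M a :=
    conjBy_eq_iff_mem_normalizer.2
      (inv_mem (centralizer_le_normalizer_supportR hG hM haM ha1 hr))
  refine ⟨conjBy r⁻¹ M, a, b, c, isCoatom_conjBy hM _, ?_, ha1, ?_, ?_, ?_, hcomm, ?_,
    by rw [hbc, hga]⟩
  · rw [sigmaCore_conjBy, ← hra]
    exact conjBy_mem haM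
  · rw [← hra, supportR_conjBy hG, hRn]
    exact hbR
  · have h2 := (conjBy_mono (g := r⁻¹) hrD).trans
      (conjBy_mono (inf_le_left : D ≤ M))
    rw [conjBy_inv_conjBy] at h2
    exact h2 (mem_zpowers c)
  · exact mem_centralizer_singleton_comm.1 hcC
  · rw [sigma_conjBy]
    exact ordPi_of_dvd hσ hc'

/-- Every `g ≠ 1` lies in some `M̃` or has the form `a c` with `κ`-part `c`. -/
theorem cover_cases {g : G} (hg : g ≠ 1) :
    (∃ M : Subgroup G, IsCoatom M ∧ g ∈ Tilde M) ∨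
      ∃ (M : Subgroup G) (a c : G), IsCoatom M ∧ a ∈ Cfsg.sigmaCore M ∧ a ≠ 1 ∧ c ∈ M ∧
        c ≠ 1 ∧ Commute a c ∧ (∀ p : ℕ, p.Prime → p ∣ orderOf c → p ∈ Cfsg.kappa M) ∧
        g = a * c := by
  obtain ⟨M, a, b, c, hM, ha, ha1, hb, hcM, hac, hbc, hσ, rfl⟩ := exists_normal_form hG hg
  by_cases hc1 : c = 1
  · subst hc1
    rw [mul_one]
    exact Or.inl ⟨M, hM, a, ⟨ha, ha1⟩, b, hb, 1, by group⟩
  rcases dichotomy hG hM ha ha1 hcM hac.eq hc1 (fun p hp hd => hσ p hp hd) with h | h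
  · rw [supportR_eq_bot hG h.2, mem_bot] at hb
    exact Or.inr ⟨M, a, c, hM, ha, ha1, hcM, hc1, hac, h.1, by rw [hb, one_mul]⟩
  left
  obtain ⟨hτ, ⟨L₀, hL₀, hcL⟩, hCc, huniq⟩ := h
  have hb1 : b = 1 := by
    have hbM : b ∈ M := hCc (mem_centralizer_singleton_comm.2 hbc.symm.eq)
    exact mem_bot.1 (supportR_inf_eq_bot hG hM ha ha1 ▸ (⟨hb, hbM⟩ : b ∈ _ ⊓ M))
  obtain ⟨u, hu⟩ := Cfsg.Agent.S1425.result hG L₀ hL₀ (zpowers c)
    (fun h => hc1 (zpowers_eq_bot.1 h)) (isPi_zpowers hcL)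
  change conjBy u (zpowers c) ≤ _ at hu
  set L := conjBy u⁻¹ L₀ with hLdef
  have hL : IsCoatom L := isCoatom_conjBy hL₀ _
  have hcLσ : c ∈ Cfsg.sigmaCore L := by
    rw [hLdef, sigmaCore_conjBy]
    have := conjBy_mono (g := u⁻¹) hu
    rw [conjBy_inv_conjBy] at this
    exact this (mem_zpowers c)
  obtain ⟨p, hp, hpd⟩ := Nat.exists_prime_and_dvd (n := orderOf c)
    (fun h => hc1 (orderOf_eq_one_iff.1 h))
  haveI : Fact p.Prime := ⟨hp⟩
  have hne : L ≠ M := fun he => hσ p hp hpd (he ▸ orderOf_mem_sigma hG hcLσ hp hpd)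
  have hnL : ¬ centralizer ({c} : Set G) ≤ L := fun h => hne (huniq L hL h)
  obtain ⟨A, hAM, hA, hAc⟩ := exists_elemAb_in (hτ p hp hpd).2.2.2
  have hnil := (Cfsg.Agent.S1417.result hG M hM p (hτ p hp hpd) A ⟨hAM, hA, hAc⟩).1
  have hR : Cfsg.supportR L c = Cfsg.sigmaCore M ⊓ centralizer ({c} : Set G) := by
    rw [supportR_eq_of_unique hG hnL hM hCc huniq, fittingHallOf_eq_sigmaCore hG hM hnil]
  refine ⟨L, hL, c, ⟨hcLσ, hc1⟩, a, ?_, 1, ?_⟩
  · rw [hR]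
    exact ⟨ha, mem_centralizer_singleton_comm.2 hac.symm.eq⟩
  · rw [hb1, one_mul, hac.eq]
    group

/-- The `κ`-case lands in the conjugates of `Ẑ`. -/
theorem exists_conj_Zhat {M K Ms : Subgroup G} (hP : KPair M K Ms) {N : Subgroup G} {a c : G}
    (hN : IsCoatom N) (ha : a ∈ Cfsg.sigmaCore N) (ha1 : a ≠ 1) (hcN : c ∈ N) (hc1 : c ≠ 1)
    (hac : Commute a c) (hκ : ∀ p : ℕ, p.Prime → p ∣ orderOf c → p ∈ Cfsg.kappa N) :
    ∃ y : G, ∃ z ∈ Zhat M K, a * c = y * z * y⁻¹ := by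
  obtain ⟨p, hp, hpd⟩ := Nat.exists_prime_and_dvd (n := orderOf c)
    (fun h => hc1 (orderOf_eq_one_iff.1 h))
  obtain ⟨u, hu⟩ := hP.conj_of_kappa_nonempty hG hN ⟨p, hκ p hp hpd⟩
  -- reduce to a member of the pair
  suffices key : ∀ M' K' Ms' : Subgroup G, KPair M' K' Ms' → N = conjBy u M' →
      ∃ y : G, ∃ z ∈ Zhat M' K', a * c = y * z * y⁻¹ by
    rcases hu with hu | hu
    · exact key M K Ms hP hu
    · obtain ⟨y, z, hz, he⟩ := key Ms _ M (hP.symm hG) hu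
      exact ⟨y, z, hP.Zhat_eq hG ▸ hz, he⟩
  intro M' K' Ms' hP' hNe
  obtain ⟨E, U, h⟩ := exists_pData' hG hP'.coatom hP'.hall hP'.ne_bot
  set a₁ := u⁻¹ * a * u with ha₁def
  set c₁ := u⁻¹ * c * u with hc₁def
  have ha₁ : a₁ ∈ Cfsg.sigmaCore M' := by
    have := hNe ▸ ha
    rwa [sigmaCore_conjBy, mem_conjBy] at this
  have hc₁ : c₁ ∈ M' := mem_conjBy.1 (hNe ▸ hcN : c ∈ conjBy u M')
  have hc₁o : orderOf c₁ = orderOf c := by
    have := MulEquiv.orderOf_eq (MulAut.conj u⁻¹) c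
    rwa [MulAut.conj_apply, inv_inv] at this
  have ha₁1 : a₁ ≠ 1 := fun h => ha1 (by
    rw [show a = u * a₁ * u⁻¹ by rw [ha₁def]; group, h]; group)
  have hc₁1 : c₁ ≠ 1 := fun h => hc1 (orderOf_eq_one_iff.1 (by rw [← hc₁o, h, orderOf_one]))
  have hσeq : Cfsg.sigma N = Cfsg.sigma M' := hNe ▸ sigma_conjBy u M'
  have hc2 : a₁ * c₁ = c₁ * a₁ := by
    simp only [ha₁def, hc₁def]
    calc u⁻¹ * a * u * (u⁻¹ * c * u) = u⁻¹ * (a * c) * u := by group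
      _ = u⁻¹ * (c * a) * u := by rw [hac.eq]
      _ = u⁻¹ * c * u * (u⁻¹ * a * u) := by group
  have hκ' : ∀ q : ℕ, q.Prime → q ∣ orderOf c₁ → q ∈ Cfsg.kappa M' := by
    rcases dichotomy hG hP'.coatom ha₁ ha₁1 hc₁ hc2 hc₁1
      (fun q hq hd hqσ => (hκ q hq (hc₁o ▸ hd)).2.2.1 (hσeq.symm ▸ hqσ)) with h1 | h2
    · exact h1.1
    · refine absurd ?_ (h2.1 p hp (hc₁o.symm ▸ hpd)).2.2.2
      have := pRankLE_conjBy (kappa_rank_one hG (hκ p hp hpd)) u⁻¹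
      rwa [hNe, conjBy_inv_conjBy] at this
  obtain ⟨m, hm, hmK⟩ := exists_conj_le_hall (coatom_solvable hG hP'.coatom) hP'.hall
    (zpowers_le.2 hc₁) (isPi_zpowers hκ')
  have hk : m * c₁ * m⁻¹ ∈ K' := hmK (conjBy_mem (mem_zpowers c₁))
  have hk1 : m * c₁ * m⁻¹ ≠ 1 := fun h => hc₁1 (conj_eq_one_iff.1 h)
  have hy : m * a₁ * m⁻¹ ∈ kStar M' K' := by
    rw [← h.prime _ hk hk1]
    refine ⟨(Subgroup.mem_normalizer_iff.1 (le_normalizer_sigmaCore hG M' hm) a₁).1 ha₁,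
      mem_centralizer_singleton_comm.2 ?_⟩
    calc m * c₁ * m⁻¹ * (m * a₁ * m⁻¹) = m * (c₁ * a₁) * m⁻¹ := by group
      _ = m * (a₁ * c₁) * m⁻¹ := by rw [hc2]
      _ = m * a₁ * m⁻¹ * (m * c₁ * m⁻¹) := by group
  refine ⟨u * m⁻¹, m * c₁ * m⁻¹ * (m * a₁ * m⁻¹), (mem_Zhat_iff hP'.hall).2
    ⟨_, hk, hk1, _, hy, fun h => ha₁1 (conj_eq_one_iff.1 h), rfl⟩, ?_⟩
  rw [hac.eq, ha₁def, hc₁def]
  group

theorem Zhat_subset_Tset {M K Ms : Subgroup G} (hP : KPair M K Ms) {z : G} (hz : z ∈ Zhat M K) :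
    z ∈ Tset M K := by
  refine ⟨hz.1, fun N hN hzN => ?_⟩
  obtain ⟨k, hk, hk1, y, hy, hy1, rfl⟩ := (mem_Zhat_iff hP.hall).1 hz
  rcases hP.members N hN with rfl | rfl
  · exact hk1 ((ordPi_sigmaCore hG ((zpowers_le.2 hzN) (left_mem_zpowers_Z hP.hall hk hy))).eq_one
      (ordPi_of_mem (isPi_K hP.hall) hk))
  · exact hy1 ((ordPi_of_mem (isPi_kStar M K) hy).eq_one
      ((ordPi_sigmaCore hG ((zpowers_le.2 hzN) (right_mem_zpowers_Z hP.hall hk hy))).mono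
        fun p hp hpM => hP.sigma_disjoint hG p hpM hp))

end Cfsg.Agent.FT.BG14b
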